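import Mathlib

/-! Graph of groups inside `FreeGroup E ⋊ Σ`: paths, convexity of the squared word norm and the
fixed point property for finite subgroups. -/

set_option autoImplicit false
universe u

namespace CF.LS
open FreeGroup

section Words
variable {E : Type u} [DecidableEq E]

omit [DecidableEq E] in
theorem isReduced_map {f : E → E} (hf : Function.Injective f) {L : List (E × Bool)}
    (h : IsReduced L) : IsReduced (L.map fun x => (f x.1, x.2)) := by
  unfold FreeGroup.IsReduced at h ⊢
  rw [List.isChain_map]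
  exact h.imp fun a b hab h' => hab (hf h')

theorem toWord_map {f : E → E} (hf : Function.Injective f) (w : FreeGroup E) :
    (FreeGroup.map f w).toWord = w.toWord.map fun x => (f x.1, x.2) := by
  conv_lhs => rw [← mk_toWord (x := w), map.mk, toWord_mk]
  exact (isReduced_map hf isReduced_toWord).reduce_eq

theorem norm_map {f : E → E} (hf : Function.Injective f) (w : FreeGroup E) :
    (FreeGroup.map f w).norm = w.norm := by
  unfold FreeGroup.norm
  rw [toWord_map hf, List.length_map]

/-- left multiplication by a letter changes the norm by one, and lowers it only when the word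
starts with the inverse letter. -/
theorem norm_letter (c : E × Bool) (z : FreeGroup E) :
    (mk [c] * z).norm = z.norm + 1 ∨
      ((mk [c] * z).norm + 1 = z.norm ∧ z.toWord.head? = some (c.1, !c.2)) := by
  have h1 : (mk [c] * z).toWord = reduce (c :: z.toWord) := by
    conv_lhs => rw [← mk_toWord (x := z), mul_mk, toWord_mk]
    rfl
  unfold FreeGroup.norm
  rw [h1, reduce.cons, reduce_toWord]
  rcases hz : z.toWord with _ | ⟨hd, tl⟩
  · left; rfl
  · dsimp only
    split_ifs with h
    · right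
      refine ⟨rfl, ?_⟩
      obtain ⟨h1, h2⟩ := h
      rcases hd with ⟨a, b⟩
      simp only at h1 h2
      simp [h1, h2]
    · left; rfl

theorem convex_letter (c d : E × Bool) (hcd : c ≠ d) (z : FreeGroup E) :
    2 * z.norm ^ 2 + 2 ≤ (mk [c] * z).norm ^ 2 + (mk [d] * z).norm ^ 2 := by
  rcases norm_letter c z with h1 | ⟨h1, h1'⟩ <;> rcases norm_letter d z with h2 | ⟨h2, h2'⟩
  · rw [h1, h2]; nlinarith
  · rw [h1, ← h2]; nlinarith
  · rw [h2, ← h1]; nlinarith
  · exfalso
    rw [h1'] at h2'
    apply hcd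
    rcases c with ⟨a, b⟩; rcases d with ⟨a', b'⟩
    simp only [Option.some.injEq, Prod.mk.injEq, Bool.not_eq_eq_eq_not, Bool.not_not] at h2'
    rw [h2'.1, h2'.2]

omit [DecidableEq E] in
theorem inv_letter (c : E × Bool) : (mk [c])⁻¹ = mk [(c.1, !c.2)] := by
  rw [inv_mk]; rfl

/-- the sum of squared norms. -/
def Φ {A : Type*} [Fintype A] (z : A → FreeGroup E) (w : FreeGroup E) : ℕ :=
  ∑ a, (w⁻¹ * z a).norm ^ 2

theorem Φ_convex {A : Type*} [Fintype A] [Nonempty A] (L : List (E × Bool)) :
    ∀ (y : E × Bool) (z : A → FreeGroup E), IsReduced (y :: L) → Φ z 1 ≤ Φ z (mk [y]) →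
      Φ z (mk [y]) + L.length ≤ Φ z (mk (y :: L)) := by
  induction L with
  | nil => intro y z _ _; simp
  | cons y' L ih =>
    intro y z hr h0
    rw [isReduced_cons_cons] at hr
    set z' : A → FreeGroup E := fun a => (mk [y])⁻¹ * z a with hz'
    have e1 : Φ z' 1 = Φ z (mk [y]) := by simp [Φ, hz']
    have e2 : Φ z' (mk (y' :: L)) = Φ z (mk (y :: y' :: L)) := by
      unfold Φ
      refine Finset.sum_congr rfl fun a _ => ?_
      have : mk (y :: y' :: L) = mk [y] * mk (y' :: L) := by rw [mul_mk]; rfl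
      rw [this, mul_inv_rev, mul_assoc]
    have hne : y ≠ (y'.1, !y'.2) := by
      intro h
      have h1 := hr.1 (by rw [h])
      rw [h] at h1
      simp at h1
    have key : 2 * Φ z' 1 + 2 ≤ Φ z 1 + Φ z' (mk [y']) := by
      unfold Φ
      rw [← Finset.sum_add_distrib, Finset.mul_sum]
      calc ∑ a, 2 * ((1 : FreeGroup E)⁻¹ * z' a).norm ^ 2 + 2
          ≤ ∑ a, 2 * ((1 : FreeGroup E)⁻¹ * z' a).norm ^ 2 + ∑ _a : A, 2 := by
            have : 1 ≤ Fintype.card A := Fintype.card_pos
            simp only [Finset.sum_const, Finset.card_univ, smul_eq_mul]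
            omega
        _ = ∑ a, (2 * ((1 : FreeGroup E)⁻¹ * z' a).norm ^ 2 + 2) := by
            rw [Finset.sum_add_distrib]
        _ ≤ _ := by
            refine Finset.sum_le_sum fun a _ => ?_
            have := convex_letter y (y'.1, !y'.2) hne (z' a)
            rw [← inv_letter] at this
            simp only [inv_one, one_mul]
            have e : mk [y] * z' a = z a := mul_inv_cancel_left _ _
            rwa [e] at this
    have := ih y' z' hr.2 (by omega)
    simp only [List.length_cons]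
    omega

end Words

section Graph
variable {Γ : Type u} [Group Γ] {E : Type u} [MulAction Γ E] {V : Type u} [MulAction Γ V]

/-- the action on the free group. -/
def act (Γ E : Type u) [Group Γ] [MulAction Γ E] : Γ →* MulAut (FreeGroup E) where
  toFun σ := freeGroupCongr (MulAction.toPerm σ)
  map_one' := by
    ext w : 1
    change FreeGroup.map (fun e => (1 : Γ) • e) w = w
    simp
  map_mul' a b := by
    ext w : 1
    change FreeGroup.map (fun e => (a * b) • e) w =
      FreeGroup.map (fun e => a • e) (FreeGroup.map (fun e => b • e) w)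
    rw [map.comp]
    congr 2
    ext e
    simp [mul_smul]

theorem act_apply (σ : Γ) (w : FreeGroup E) : act Γ E σ w = FreeGroup.map (fun e => σ • e) w := rfl

/-- the letter map. -/
def lt (σ : Γ) (x : E × Bool) : E × Bool := (σ • x.1, x.2)

theorem act_mk (σ : Γ) (L : List (E × Bool)) : act Γ E σ (mk L) = mk (L.map (lt σ)) := rfl

/-- paths in the graph with source and target maps `s`, `t`. -/
def Path (s t : E → V) : V → List (E × Bool) → V → Prop
  | a, [], b => a = b
  | a, x :: L, b => (if x.2 then s x.1 else t x.1) = a ∧ Path s t (if x.2 then t x.1 else s x.1) L b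

variable {s t : E → V}

omit [MulAction Γ E] [MulAction Γ V] in
theorem path_append {L₁ L₂ : List (E × Bool)} : ∀ {a c : V},
    Path s t a (L₁ ++ L₂) c ↔ ∃ b, Path s t a L₁ b ∧ Path s t b L₂ c := by
  induction L₁ with
  | nil => intro a c; simp [Path]
  | cons x L ih =>
    intro a c
    simp only [List.cons_append, Path, ih]
    constructor
    · rintro ⟨h, b, h1, h2⟩; exact ⟨b, ⟨h, h1⟩, h2⟩
    · rintro ⟨b, ⟨h, h1⟩, h2⟩; exact ⟨h, b, h1, h2⟩

omit [MulAction Γ E] [MulAction Γ V] in
theorem Path.invRev {L : List (E × Bool)} : ∀ {a b : V}, Path s t a L b →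
    Path s t b (invRev L) a := by
  induction L with
  | nil => intro a b h; exact h.symm
  | cons x L ih =>
    intro a b h
    rw [invRev_cons, path_append]
    refine ⟨_, ih h.2, ?_⟩
    rcases x with ⟨e, _ | _⟩
    · exact ⟨rfl, h.1⟩
    · exact ⟨rfl, h.1⟩

theorem Path.smul (hs : ∀ (σ : Γ) e, s (σ • e) = σ • s e) (ht : ∀ (σ : Γ) e, t (σ • e) = σ • t e)
    (σ : Γ) {L : List (E × Bool)} : ∀ {a b : V}, Path s t a L b →
    Path s t (σ • a) (L.map (lt σ)) (σ • b) := by
  induction L with
  | nil => intro a b h; exact congrArg _ h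
  | cons x L ih =>
    intro a b h
    obtain ⟨h1, h2⟩ := h
    have := ih h2
    rcases x with ⟨e, _ | _⟩
    · exact ⟨by rw [← h1]; exact ht σ e, by
        have e1 : (if (lt σ (e, false)).2 then t (lt σ (e, false)).1 else s (lt σ (e, false)).1) =
          σ • s e := hs σ e
        rw [e1]; exact this⟩
    · exact ⟨by rw [← h1]; exact hs σ e, by
        have e1 : (if (lt σ (e, true)).2 then t (lt σ (e, true)).1 else s (lt σ (e, true)).1) =
          σ • t e := ht σ e
        rw [e1]; exact this⟩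

omit [MulAction Γ E] [MulAction Γ V] in
theorem Path.red {L L' : List (E × Bool)} (hr : Red L L') {a b : V} (h : Path s t a L b) :
    Path s t a L' b := by
  induction hr with
  | refl => exact h
  | tail _ hst ih =>
    cases hst with
    | @not L₁ L₂ x c =>
      rw [path_append] at ih ⊢
      obtain ⟨d, h1, h2⟩ := ih
      refine ⟨d, h1, ?_⟩
      obtain ⟨h3, -, h5⟩ := h2
      rw [← h3]
      cases c
      · exact h5
      · exact h5

/-- the fundamental group. -/
def grp (hs : ∀ (σ : Γ) e, s (σ • e) = σ • s e) (ht : ∀ (σ : Γ) e, t (σ • e) = σ • t e)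
    (v : V) : Subgroup (FreeGroup E ⋊[act Γ E] Γ) where
  carrier := {g | ∃ L, mk L = g.left ∧ Path s t v L (g.right • v)}
  one_mem' := ⟨[], rfl, by simp [Path]⟩
  mul_mem' := by
    rintro a b ⟨L, h1, h2⟩ ⟨M, h3, h4⟩
    refine ⟨L ++ M.map (lt a.right), ?_, ?_⟩
    · rw [SemidirectProduct.mul_left, ← h1, ← h3, act_mk, mul_mk]
    · rw [path_append, SemidirectProduct.mul_right, mul_smul]
      exact ⟨_, h2, h4.smul hs ht _⟩
  inv_mem' := by
    rintro a ⟨L, h1, h2⟩
    refine ⟨(invRev L).map (lt a.right⁻¹), ?_, ?_⟩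
    · rw [SemidirectProduct.inv_left, ← h1, inv_mk, act_mk]
    · have := h2.invRev.smul hs ht a.right⁻¹
      rwa [inv_smul_smul] at this

variable {hs : ∀ (σ : Γ) e, s (σ • e) = σ • s e} {ht : ∀ (σ : Γ) e, t (σ • e) = σ • t e} {v : V}

theorem path_toWord [DecidableEq E] {g : FreeGroup E ⋊[act Γ E] Γ} (hg : g ∈ grp hs ht v) :
    Path s t v g.left.toWord (g.right • v) := by
  obtain ⟨L, h1, h2⟩ := hg
  rw [← h1, toWord_mk]
  exact h2.red reduce.red

theorem norm_act [DecidableEq E] (σ : Γ) (w : FreeGroup E) : (act Γ E σ w).norm = w.norm :=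
  norm_map (MulAction.injective σ) w

/-- finite subgroups fix a vertex of the tree. -/
theorem finite_conj [MulAction.IsPretransitive Γ V] (H : Subgroup (grp hs ht v)) [Finite H] :
    ∃ g : grp hs ht v, ∀ h ∈ H,
      ((g * h * g⁻¹ : grp hs ht v) : FreeGroup E ⋊[act Γ E] Γ).left = 1 := by
  classical
  have := Fintype.ofFinite H
  let f : grp hs ht v → ℕ := fun g =>
    ∑ h : H, ((g⁻¹ * h : grp hs ht v) : FreeGroup E ⋊[act Γ E] Γ).left.norm ^ 2
  obtain ⟨g, hg⟩ : ∃ g, ∀ g', f g ≤ f g' := by
    have : ∃ n, ∃ g, f g = n := ⟨_, 1, rfl⟩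
    obtain ⟨g, hg⟩ := Nat.find_spec this
    exact ⟨g, fun g' => hg ▸ Nat.find_min' this ⟨g', rfl⟩⟩
  let z : H → FreeGroup E := fun h =>
    ((g⁻¹ * h : grp hs ht v) : FreeGroup E ⋊[act Γ E] Γ).left
  have hf : ∀ x : grp hs ht v, f (g * x) = Φ z (x : FreeGroup E ⋊[act Γ E] Γ).left := by
    intro x
    refine Finset.sum_congr rfl fun h _ => ?_
    have : ((g * x)⁻¹ * h : grp hs ht v) = x⁻¹ * (g⁻¹ * h) := by group
    rw [this, Subgroup.coe_mul, SemidirectProduct.mul_left, Subgroup.coe_inv,
      SemidirectProduct.inv_left, SemidirectProduct.inv_right, ← _root_.map_mul, norm_act]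
  have hinv : ∀ k ∈ H, f (k * g) = f g := by
    intro k hk
    refine Fintype.sum_equiv (Equiv.mulLeft (⟨k, hk⟩ : H)⁻¹) _ _ fun h => ?_
    have : ((k * g)⁻¹ * h : grp hs ht v) =
        g⁻¹ * ((Equiv.mulLeft (⟨k, hk⟩ : H)⁻¹ h : H) : grp hs ht v) := by
      simp [mul_assoc]
    rw [this]
  have h0 : f g = Φ z 1 := by
    have := hf 1
    rwa [mul_one] at this
  have hle : ∀ k ∈ H,
      ((g⁻¹ * k * g : grp hs ht v) : FreeGroup E ⋊[act Γ E] Γ).left.norm ≤ 1 := by
    intro k hk
    set x : grp hs ht v := g⁻¹ * k * g with hx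
    have h1 : Φ z (x : FreeGroup E ⋊[act Γ E] Γ).left = Φ z 1 := by
      rw [← hf, ← h0, ← hinv k hk, hx]
      congr 1
      group
    have hp := path_toWord x.2
    have hr : IsReduced (x : FreeGroup E ⋊[act Γ E] Γ).left.toWord := isReduced_toWord
    have hm : mk (x : FreeGroup E ⋊[act Γ E] Γ).left.toWord = _ := mk_toWord
    unfold FreeGroup.norm
    rcases hw : (x : FreeGroup E ⋊[act Γ E] Γ).left.toWord with _ | ⟨y, L⟩
    · simp
    rw [hw] at hp hr hm
    obtain ⟨σ, hσ⟩ := MulAction.exists_smul_eq Γ v (if y.2 then t y.1 else s y.1)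
    have hy : (⟨mk [y], σ⟩ : FreeGroup E ⋊[act Γ E] Γ) ∈ grp hs ht v :=
      ⟨[y], rfl, hp.1, hσ.symm⟩
    have h2 := hf ⟨_, hy⟩
    have h3 := hg (g * ⟨_, hy⟩)
    rw [h2, h0] at h3
    have h4 := Φ_convex L y z hr h3
    rw [hm, h1] at h4
    simp only [List.length_cons]
    change Φ z 1 ≤ Φ z (mk [y]) at h3
    omega
  refine ⟨g⁻¹, fun k hk => ?_⟩
  rw [inv_inv]
  have h1 := hle k hk
  have h2 := hle (k * k) (H.mul_mem hk hk)
  have e : (g⁻¹ * (k * k) * g : grp hs ht v) = (g⁻¹ * k * g) * (g⁻¹ * k * g) := by group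
  rw [e, Subgroup.coe_mul, SemidirectProduct.mul_left] at h2
  generalize ((g⁻¹ * k * g : grp hs ht v) : FreeGroup E ⋊[act Γ E] Γ) = x at h1 h2 ⊢
  have hm : mk x.left.toWord = _ := mk_toWord
  unfold FreeGroup.norm at h1
  rcases hw : x.left.toWord with _ | ⟨y, _ | ⟨y', L⟩⟩
  · exact toWord_eq_nil_iff.mp hw
  · exfalso
    rw [hw] at hm
    rw [← hm, act_mk, mul_mk] at h2
    unfold FreeGroup.norm at h2
    rw [toWord_mk, IsReduced.reduce_eq] at h2
    · simp at h2
    · simp [isReduced_cons_cons, lt]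
  · rw [hw] at h1
    simp at h1

/-- an element of `Γ` fixing a word fixes its letters. -/
theorem fix_letters [DecidableEq E] {σ : Γ} {w : FreeGroup E} (h : act Γ E σ w = w) :
    ∀ x ∈ w.toWord, σ • x.1 = x.1 := by
  have h1 := toWord_map (MulAction.injective σ) w
  rw [← act_apply, h] at h1
  intro x hx
  have h2 : w.toWord.map id = w.toWord.map fun x => (σ • x.1, x.2) := by simpa using h1
  have := List.map_inj_left.mp h2 x hx
  exact (congrArg Prod.fst this).symm

omit [MulAction Γ E] [MulAction Γ V] in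
theorem Path.transfer {Q : V → Prop} {L : List (E × Bool)}
    (hL : ∀ x ∈ L, (Q (s x.1) ↔ Q (t x.1))) : ∀ {a b : V}, Path s t a L b → Q a → Q b := by
  induction L with
  | nil => intro a b h hq; exact h ▸ hq
  | cons x L ih =>
    intro a b h hq
    refine ih (fun y hy => hL y (List.mem_cons_of_mem _ hy)) h.2 ?_
    have := hL x List.mem_cons_self
    rw [← h.1] at hq
    rcases x with ⟨e, _ | _⟩
    · exact this.mpr hq
    · exact this.mp hq

end Graph

end CF.LS
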